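import Cfsg.Agent.Lib.Helper32.MQ.Defs

set_option autoImplicit false

namespace Cfsg.Agent.Lib.Helper32.MQ

universe u v

variable {G : Type v} {Ω Β : Type u} [Group G] [MulAction G Ω] [MulAction G Β]

/-- x, y ∈ Γ give elements ⟨x, _⟩ ⟨y, _⟩ of `SubMulAction.ofFixingSubgroup G Γᶜ` (carrier = (Γᶜ)ᶜ,
`SubMulAction.mem_ofFixingSubgroup_iff`); `MulAction.exists_smul_eq` gives g in the fixing subgroup
(`mem_fixingSubgroup_iff`), take the underlying element, `Subtype.ext_iff`/`congrArg Subtype.val`. -/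
theorem BR (Γ : Set Ω)
    (hJ : MulAction.IsPretransitive ↥(fixingSubgroup G Γᶜ) ↥(SubMulAction.ofFixingSubgroup G Γᶜ)) :
    EJ G Γ := by
  intro x hx y hy
  have hx' : x ∈ SubMulAction.ofFixingSubgroup G Γᶜ := by
    rw [SubMulAction.mem_ofFixingSubgroup_iff]; simpa using hx
  have hy' : y ∈ SubMulAction.ofFixingSubgroup G Γᶜ := by
    rw [SubMulAction.mem_ofFixingSubgroup_iff]; simpa using hy
  obtain ⟨g, hg⟩ := hJ.exists_smul_eq (⟨x, hx'⟩ : ↥(SubMulAction.ofFixingSubgroup G Γᶜ)) ⟨y, hy'⟩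
  refine ⟨(g : G), ?_, congrArg Subtype.val hg⟩
  intro z hz
  exact (mem_fixingSubgroup_iff G).1 g.2 z hz

end Cfsg.Agent.Lib.Helper32.MQ
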