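import Mathlib

set_option autoImplicit false

namespace Cfsg.Agent.Lib.Helper32.MQ

/-- elementwise Jordan condition: the pointwise stabiliser of the complement of `Γ` is
transitive on `Γ`. -/
def EJ (G : Type*) {Ω : Type*} [Group G] [MulAction G Ω] (Γ : Set Ω) : Prop :=
  ∀ x ∈ Γ, ∀ y ∈ Γ, ∃ g : G, (∀ d, d ∉ Γ → g • d = d) ∧ g • x = y

/-- quasiprimitive. -/
def QP (G : Type*) (Ω : Type*) [Group G] [MulAction G Ω] : Prop :=
  ∀ N : Subgroup G, N.Normal → N ≠ ⊥ → MulAction.IsPretransitive ↥N Ω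

/-- faithful, elementwise. -/
def FF (G : Type*) (Ω : Type*) [Group G] [MulAction G Ω] : Prop :=
  ∀ g : G, (∀ x : Ω, g • x = x) → g = 1

/-- equivariant surjection. -/
structure ES (G : Type*) {Ω Β : Type*} [Group G] [MulAction G Ω] [MulAction G Β]
    (π : Ω → Β) : Prop where
  eq : ∀ (g : G) (x : Ω), π (g • x) = g • π x
  surj : Function.Surjective π

/-- every even permutation is induced. -/
def AltIn (G : Type*) (Β : Type*) [Group G] [MulAction G Β] [Fintype Β] [DecidableEq Β] : Prop :=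
  ∀ σ : Equiv.Perm Β, Equiv.Perm.sign σ = 1 → ∃ x : G, ∀ β : Β, x • β = σ β

/-- membership predicate of the group `Wg`. -/
def InW (G : Type*) {Ω Β : Type*} [Group G] [MulAction G Ω] [MulAction G Β] [DecidableEq Β]
    (π : Ω → Β) (β0 : Β) (τ : Equiv.Perm {β : Β // β ≠ β0}) : Prop :=
  ∃ x : G, (∀ ω, π ω = β0 → x • ω = ω) ∧ ∀ β : Β, x • β = Equiv.Perm.ofSubtype τ β

end Cfsg.Agent.Lib.Helper32.MQ
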