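import Cfsg.Agent.Lib.Helper32.MQ.Defs

set_option autoImplicit false

namespace Cfsg.Agent.Lib.Helper32.MQ

universe u v

variable {G : Type v} {Ω Β : Type u} [Group G] [MulAction G Ω] [MulAction G Β]

/-- unfold the structure `MulAction.IsPreprimitive` (fields: toIsPretransitive, isTrivialBlock_of_isBlock);
by_contra + push Not, then build the instance. -/
theorem NP1 (htr : MulAction.IsPretransitive G Ω) (hnp : ¬ MulAction.IsPreprimitive G Ω) :
    ∃ B : Set Ω, MulAction.IsBlock G B ∧ ¬ MulAction.IsTrivialBlock B := by
  by_contra hcon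
  push Not at hcon
  exact hnp { toIsPretransitive := htr, isTrivialBlock_of_isBlock := fun {B} hB => hcon B hB }

end Cfsg.Agent.Lib.Helper32.MQ
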