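import Cfsg.Agent.Lib.Helper32.MQ.Defs

set_option autoImplicit false

namespace Cfsg.Agent.Lib.Helper32.MQ

universe u v

variable {G : Type v} {Ω Β : Type u} [Group G] [MulAction G Ω] [MulAction G Β]

/-- `MulAction.IsPreprimitive.of_surjective` with φ = (MulAction.toPermHom G Ω).rangeRestrict and the identity as equivariant map. -/
theorem PR1 (hprim : MulAction.IsPreprimitive G Ω) :
    MulAction.IsPreprimitive ↥(MulAction.toPermHom G Ω).range Ω := by
  let φ : G → ↥(MulAction.toPermHom G Ω).range := (MulAction.toPermHom G Ω).rangeRestrict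
  let f : Ω →ₑ[φ] Ω :=
    { toFun := id
      map_smul' := fun g x => rfl }
  exact MulAction.IsPreprimitive.of_surjective (f := f) Function.surjective_id

end Cfsg.Agent.Lib.Helper32.MQ
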