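import Cfsg.Agent.Lib.Helper32.MQ.Defs
import Cfsg.Agent.Lib.Helper32.MQ.PR1

set_option autoImplicit false

namespace Cfsg.Agent.Lib.Helper32.MQ

universe u v

variable {G : Type v} {Ω Β : Type u} [Group G] [MulAction G Ω] [MulAction G Β]

/-- apply hP to H = (MulAction.toPermHom G Ω).range with PR1; the Jordan hypothesis: g from hJ, use
MulAction.toPermHom G Ω g. Then σ ∈ alternatingGroup Ω ≤ range gives x. -/
theorem PR2 [Fintype Ω] [DecidableEq Ω]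
    (hP : ∀ H : Subgroup (Equiv.Perm Ω), MulAction.IsPreprimitive ↥H Ω → ∀ Gam : Set Ω,
      2 ≤ Gam.ncard → 2 * Gam.ncard < Fintype.card Ω →
      (∀ x ∈ Gam, ∀ y ∈ Gam, ∃ g ∈ H, (∀ d, d ∉ Gam → g d = d) ∧ g x = y) →
      alternatingGroup Ω ≤ H)
    (hprim : MulAction.IsPreprimitive G Ω) (Γ : Set Ω) (h1 : 1 < Γ.ncard)
    (h2 : 2 * Γ.ncard < Fintype.card Ω) (hJ : EJ G Γ) : AltIn G Ω := by
  have h := hP (MulAction.toPermHom G Ω).range (PR1 hprim) Γ h1 h2 (by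
    intro x hx y hy
    obtain ⟨g, hg1, hg2⟩ := hJ x hx y hy
    exact ⟨MulAction.toPermHom G Ω g, ⟨g, rfl⟩, hg1, hg2⟩)
  intro σ hσ
  obtain ⟨x, hx⟩ := h (Equiv.Perm.mem_alternatingGroup.2 hσ)
  refine ⟨x, fun β => ?_⟩
  rw [← hx]
  rfl

end Cfsg.Agent.Lib.Helper32.MQ
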