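import Cfsg.Agent.Lib.Helper32.MQ.Defs

set_option autoImplicit false

namespace Cfsg.Agent.Lib.Helper32.MQ

universe u v

variable {G : Type v} {Ω Β : Type u} [Group G] [MulAction G Ω] [MulAction G Β]

/-- N = kernel of the action on Β (`(MulAction.toPermHom G Β).ker`) is normal. If g ≠ 1 lies in N then
N ≠ ⊥, so N is transitive on Ω: for all x y there is n ∈ N with n • x = y, so π y = n • π x = π x;
π surjective, so Β is a subsingleton: contradiction with Nontrivial. -/
theorem S1 {π : Ω → Β} (hqp : QP G Ω) (hπ : ES G π) (hB : Nontrivial Β) : FF G Β := by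
  intro g hg
  by_contra hg1
  have hmem : ∀ n : G, n ∈ (MulAction.toPermHom G Β).ker ↔ ∀ b : Β, n • b = b := by
    intro n
    rw [MonoidHom.mem_ker]
    constructor
    · intro h b
      have := congrArg (fun σ : Equiv.Perm Β => σ b) h
      simpa using this
    · intro h
      ext b
      simpa using h b
  have hne : (MulAction.toPermHom G Β).ker ≠ ⊥ := by
    intro h
    have : g ∈ (⊥ : Subgroup G) := h ▸ (hmem g).2 hg
    exact hg1 (Subgroup.mem_bot.1 this)
  have ht := hqp _ inferInstance hne
  obtain ⟨a, b, hab⟩ := hB.exists_pair_ne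
  obtain ⟨x, rfl⟩ := hπ.surj a
  obtain ⟨y, rfl⟩ := hπ.surj b
  obtain ⟨n, hn⟩ := ht.exists_smul_eq x y
  apply hab
  have h1 : (n : G) • x = y := hn
  rw [← h1, hπ.eq, (hmem n).1 n.2]

end Cfsg.Agent.Lib.Helper32.MQ
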