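import Cfsg.Agent.Lib.Helper32.MQ.Defs

set_option autoImplicit false

namespace Cfsg.Agent.Lib.Helper32.MQ

universe u v

variable {G : Type v} {Ω Β : Type u} [Group G] [MulAction G Ω] [MulAction G Β]

/-- N normal ≠ ⊥ is transitive on Ω; β₁ = π x₁, β₂ = π x₂, n • x₁ = x₂ gives n • β₁ = β₂. -/
theorem S2 {π : Ω → Β} (hqp : QP G Ω) (hπ : ES G π) : QP G Β := by
  intro N hN hne
  have h := hqp N hN hne
  refine ⟨fun b₁ b₂ => ?_⟩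
  obtain ⟨x₁, rfl⟩ := hπ.surj b₁
  obtain ⟨x₂, rfl⟩ := hπ.surj b₂
  obtain ⟨n, hn⟩ := h.exists_smul_eq x₁ x₂
  refine ⟨n, ?_⟩
  have h1 : (n : G) • x₁ = x₂ := hn
  change (n : G) • π x₁ = π x₂
  rw [← hπ.eq, h1]

end Cfsg.Agent.Lib.Helper32.MQ
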