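import Cfsg.Agent.Lib.Helper32.MQ.Defs

set_option autoImplicit false

namespace Cfsg.Agent.Lib.Helper32.MQ

universe u v

variable {G : Type v} {Ω Β : Type u} [Group G] [MulAction G Ω] [MulAction G Β]

/-- Γ is a union of fibres. -/
theorem S3 {π : Ω → Β} (hπ : ES G π) (hF : FF G Β) (Γ : Set Ω) (h1 : 1 < Γ.ncard) (hJ : EJ G Γ) :
    ∀ x y, π x = π y → y ∈ Γ → x ∈ Γ := by
  have hfin : Γ.Finite := Set.finite_of_ncard_pos (by omega)
  obtain ⟨a, b, ha, hb, hab⟩ := (Set.one_lt_ncard_iff hfin).1 h1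
  obtain ⟨k, hk1, hk2⟩ := hJ a ha b hb
  have hk : k ≠ 1 := by
    rintro rfl
    rw [one_smul] at hk2
    exact hab hk2
  have hex : ∃ β : Β, k • β ≠ β := by
    by_contra hcon
    push Not at hcon
    exact hk (hF k hcon)
  obtain ⟨β, hβ⟩ := hex
  have hcl : ∀ x0, π x0 = β → x0 ∈ Γ := by
    intro x0 hx0
    by_contra hn
    apply hβ
    rw [← hx0, ← hπ.eq, hk1 x0 hn]
  obtain ⟨x0, hx0⟩ := hπ.surj β
  have hx0Γ := hcl x0 hx0
  intro x y hxy hy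
  by_contra hx
  obtain ⟨k', hk'1, hk'2⟩ := hJ x0 hx0Γ y hy
  have e1 : k' • x = x := hk'1 x hx
  have e2 : k'⁻¹ • x = x := by
    rw [inv_smul_eq_iff, e1]
  have e3 : k'⁻¹ • y = x0 := by
    rw [inv_smul_eq_iff, hk'2]
  apply hx
  apply hcl
  calc π x = π (k'⁻¹ • x) := by rw [e2]
    _ = k'⁻¹ • π x := hπ.eq _ _
    _ = k'⁻¹ • π y := by rw [hxy]
    _ = π (k'⁻¹ • y) := (hπ.eq _ _).symm
    _ = β := by rw [e3, hx0]

end Cfsg.Agent.Lib.Helper32.MQ
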