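import Cfsg.Agent.Lib.Helper32.MQ.Defs

set_option autoImplicit false

namespace Cfsg.Agent.Lib.Helper32.MQ

universe u v

variable {G : Type v} {Ω Β : Type u} [Group G] [MulAction G Ω] [MulAction G Β]

/-- the image of a Jordan set is a Jordan set. -/
theorem S4 {π : Ω → Β} (hπ : ES G π) (Γ : Set Ω) (hJ : EJ G Γ) : EJ G (π '' Γ) := by
  rintro _ ⟨x₁, h₁, rfl⟩ _ ⟨x₂, h₂, rfl⟩
  obtain ⟨k, hk1, hk2⟩ := hJ x₁ h₁ x₂ h₂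
  refine ⟨k, ?_, by rw [← hπ.eq, hk2]⟩
  intro β hβ
  obtain ⟨x, rfl⟩ := hπ.surj β
  have hx : x ∉ Γ := fun h => hβ ⟨x, h, rfl⟩
  rw [← hπ.eq, hk1 x hx]

end Cfsg.Agent.Lib.Helper32.MQ
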