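import Cfsg.Agent.Lib.Helper32.MQ.Defs

set_option autoImplicit false

namespace Cfsg.Agent.Lib.Helper32.MQ

universe u v

variable {G : Type v} {Ω Β : Type u} [Group G] [MulAction G Ω] [MulAction G Β]

/-- all fibres have the same size: β = π x, β' = π x', g • x = x'; `fun ω => g • ω` is a bijection from
π ⁻¹' {β} onto π ⁻¹' {β'} (e.g. π ⁻¹' {β'} = (fun ω => g • ω) '' (π ⁻¹' {β}) and
`Set.ncard_image_of_injective`). If Β is empty any b works. -/
theorem S5a {π : Ω → Β} (hπ : ES G π) (htr : MulAction.IsPretransitive G Ω) :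
    ∃ b : ℕ, ∀ β : Β, (π ⁻¹' {β}).ncard = b := by
  have key : ∀ β β' : Β, (π ⁻¹' {β}).ncard = (π ⁻¹' {β'}).ncard := by
    intro β β'
    obtain ⟨x, rfl⟩ := hπ.surj β
    obtain ⟨x', rfl⟩ := hπ.surj β'
    obtain ⟨g, hg⟩ := htr.exists_smul_eq x x'
    have himg : π ⁻¹' {π x'} = (fun ω => g • ω) '' (π ⁻¹' {π x}) := by
      ext ω
      simp only [Set.mem_preimage, Set.mem_singleton_iff, Set.mem_image]
      constructor
      · intro h
        refine ⟨g⁻¹ • ω, ?_, by simp⟩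
        rw [hπ.eq, h, ← hg, hπ.eq, inv_smul_smul]
      · rintro ⟨w, hw, rfl⟩
        rw [hπ.eq, hw, ← hπ.eq, hg]
    rw [himg, Set.ncard_image_of_injective _ (MulAction.injective g)]
  by_cases hB : Nonempty Β
  · obtain ⟨β0⟩ := hB
    exact ⟨_, fun β => key β β0⟩
  · exact ⟨0, fun β => (hB ⟨β⟩).elim⟩

end Cfsg.Agent.Lib.Helper32.MQ
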