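import Cfsg.Agent.Lib.Helper32.MQ.Defs

set_option autoImplicit false

namespace Cfsg.Agent.Lib.Helper32.MQ

universe u v

variable {G : Type v} {Ω Β : Type u} [Group G] [MulAction G Ω] [MulAction G Β]

/-- pure counting, no group: e.g. induction on the finite set S (`Set.Finite.induction_on`), with
π ⁻¹' (insert β S) = π ⁻¹' {β} ∪ π ⁻¹' S disjoint (`Set.ncard_union_eq`); or
`Finset.card_eq_sum_card_fiberwise`. -/
theorem S5b {Ω Β : Type*} [Finite Ω] [Finite Β] (π : Ω → Β) (b : ℕ)
    (hb : ∀ β : Β, (π ⁻¹' {β}).ncard = b) (S : Set Β) : (π ⁻¹' S).ncard = b * S.ncard := by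
  induction S, Set.toFinite S using Set.Finite.induction_on with
  | empty => simp
  | @insert β S hβ _ ih =>
    have e : π ⁻¹' (insert β S) = π ⁻¹' {β} ∪ π ⁻¹' S := by
      rw [← Set.preimage_union]; rfl
    have hd : Disjoint (π ⁻¹' {β}) (π ⁻¹' S) := by
      rw [Set.disjoint_left]
      intro x hx hx'
      have h1 : π x = β := hx
      exact hβ (h1 ▸ hx')
    rw [e, Set.ncard_union_eq hd (Set.toFinite _) (Set.toFinite _), hb, ih,
      Set.ncard_insert_of_notMem hβ (Set.toFinite _)]
    ring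

end Cfsg.Agent.Lib.Helper32.MQ
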