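import Cfsg.Agent.Lib.Helper32.MQ.Defs
import Cfsg.Agent.Lib.Helper32.MQ.S5a
import Cfsg.Agent.Lib.Helper32.MQ.S5b

set_option autoImplicit false

namespace Cfsg.Agent.Lib.Helper32.MQ

universe u v

variable {G : Type v} {Ω Β : Type u} [Group G] [MulAction G Ω] [MulAction G Β]

/-- b from S5a; S5b with S = π '' Γ (π ⁻¹' (π '' Γ) = Γ by hsat) and S = univ
(`Set.ncard_univ`, `Set.preimage_univ`): 2 * (b * c) < b * N so 2 * c < N
(`Nat.lt_of_mul_lt_mul_left` after `ring_nf`/`Nat.mul_left_comm`). -/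
theorem S5c [Finite Ω] [Finite Β] {π : Ω → Β} (hπ : ES G π) (htr : MulAction.IsPretransitive G Ω)
    (Γ : Set Ω) (hsat : ∀ x y, π x = π y → y ∈ Γ → x ∈ Γ) (h2 : 2 * Γ.ncard < Nat.card Ω) :
    2 * (π '' Γ).ncard < Nat.card Β := by
  obtain ⟨b, hb⟩ := S5a hπ htr
  have h1 := S5b π b hb (π '' Γ)
  have h3 := S5b π b hb Set.univ
  have e1 : π ⁻¹' (π '' Γ) = Γ := by
    ext x
    constructor
    · rintro ⟨y, hy, hxy⟩
      exact hsat x y hxy.symm hy
    · intro hx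
      exact ⟨x, hx, rfl⟩
  rw [e1] at h1
  rw [Set.preimage_univ, Set.ncard_univ, Set.ncard_univ] at h3
  rw [h1, h3] at h2
  have h4 : b * (2 * (π '' Γ).ncard) < b * Nat.card Β := by
    calc b * (2 * (π '' Γ).ncard) = 2 * (b * (π '' Γ).ncard) := by ring
      _ < b * Nat.card Β := h2
  exact Nat.lt_of_mul_lt_mul_left h4

end Cfsg.Agent.Lib.Helper32.MQ
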