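import Cfsg.Agent.Lib.Helper32.MQ.Defs

set_option autoImplicit false

namespace Cfsg.Agent.Lib.Helper32.MQ

universe u v

variable {G : Type v} {Ω Β : Type u} [Group G] [MulAction G Ω] [MulAction G Β]

/-- at least three fibres meet `Γ`. -/
theorem S6 [Finite Β] {π : Ω → Β} (hπ : ES G π) (hF : FF G Β) (htr : MulAction.IsPretransitive G Ω)
    (hni : ¬ Function.Injective π) (Γ : Set Ω) (hne : Γ.Nonempty)
    (hsat : ∀ x y, π x = π y → y ∈ Γ → x ∈ Γ) (hJ : EJ G Γ) :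
    3 ≤ (π '' Γ).ncard := by
  classical
  have hni' : ∃ u u', π u = π u' ∧ u ≠ u' := by
    by_contra hcon
    push_neg at hcon
    exact hni (fun a b hab => hcon a b hab)
  obtain ⟨u, u', huu, hne'⟩ := hni'
  obtain ⟨z, hz⟩ := hne
  obtain ⟨g, hg⟩ := htr.exists_smul_eq u z
  have hxx' : z ≠ g • u' := by
    intro h
    rw [← hg] at h
    exact hne' (smul_left_cancel g h)
  have hπx : π (g • u') = π z := by
    rw [← hg, hπ.eq, hπ.eq, huu]
  have hx' : g • u' ∈ Γ := hsat _ _ hπx hz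
  obtain ⟨k, hkfix, hkx⟩ := hJ z hz (g • u') hx'
  have hk1 : k ≠ 1 := by
    intro h
    rw [h, one_smul] at hkx
    exact hxx' hkx
  have hkβ1 : k • π z = π z := by
    rw [← hπ.eq, hkx, hπx]
  have hex : ∃ β₂ : Β, k • β₂ ≠ β₂ := by
    by_contra hcon
    push_neg at hcon
    exact hk1 (hF k hcon)
  obtain ⟨β₂, hβ₂⟩ := hex
  have hfixout : ∀ β : Β, β ∉ π '' Γ → k • β = β := by
    intro β hβ
    obtain ⟨w, rfl⟩ := hπ.surj β
    have hw : w ∉ Γ := fun h => hβ ⟨w, h, rfl⟩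
    rw [← hπ.eq, hkfix w hw]
  have h2 : β₂ ∈ π '' Γ := by
    by_contra h
    exact hβ₂ (hfixout β₂ h)
  have h3 : k • β₂ ∈ π '' Γ := by
    by_contra h
    have := hfixout _ h
    exact hβ₂ (smul_left_cancel k this)
  have h1 : π z ∈ π '' Γ := ⟨z, hz, rfl⟩
  have h12 : π z ≠ β₂ := by
    intro h
    rw [← h] at hβ₂
    exact hβ₂ hkβ1
  have h13 : π z ≠ k • β₂ := by
    intro h
    have h' : k • π z = k • β₂ := by rw [hkβ1]; exact h
    exact h12 (smul_left_cancel k h')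
  have h23 : β₂ ≠ k • β₂ := fun h => hβ₂ h.symm
  have hsub : ({π z, β₂, k • β₂} : Set Β) ⊆ π '' Γ := by
    intro b hb
    rcases hb with rfl | rfl | rfl
    · exact h1
    · exact h2
    · exact h3
  have hc : ({π z, β₂, k • β₂} : Set Β).ncard = 3 :=
    Set.ncard_eq_three.2 ⟨_, _, _, h12, h13, h23, rfl⟩
  rw [← hc]
  exact Set.ncard_le_ncard hsub (Set.toFinite _)

end Cfsg.Agent.Lib.Helper32.MQ
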