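import Cfsg.Agent.Lib.Helper32.MQ.Defs

set_option autoImplicit false

namespace Cfsg.Agent.Lib.Helper32.MQ

universe u v

variable {G : Type v} {Ω Β : Type u} [Group G] [MulAction G Ω] [MulAction G Β]

/-- τ x = y ≠ x. Choose z, w with x, y, z, w distinct (card ≥ 4). ρ = swap y z * swap y w (or any 3-cycle on
y z w; `Equiv.Perm.isThreeCycle_swap_mul_swap_same`, `Equiv.Perm.IsThreeCycle.mem_alternatingGroup`) fixes x
and moves y. (ρ τ ρ⁻¹) x = ρ (τ x) = ρ y ≠ y = τ x. -/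
theorem NS0 {α : Type*} [Fintype α] [DecidableEq α] (h4 : 4 ≤ Fintype.card α)
    (τ : Equiv.Perm α) (hτ : τ ≠ 1) : ∃ ρ ∈ alternatingGroup α, ρ * τ * ρ⁻¹ ≠ τ := by
  obtain ⟨x, hx⟩ : ∃ x, τ x ≠ x := by
    by_contra hcon
    push Not at hcon
    exact hτ (Equiv.ext hcon)
  -- two more points
  have hcard : 2 < (Finset.univ.erase x).card := by
    rw [Finset.card_erase_of_mem (Finset.mem_univ _), Finset.card_univ]; omega
  have hcard2 : 1 < ((Finset.univ.erase x).erase (τ x)).card := by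
    rw [Finset.card_erase_of_mem (Finset.mem_erase.2 ⟨hx, Finset.mem_univ _⟩)]; omega
  obtain ⟨z, hz, w, hw, hzw⟩ := Finset.one_lt_card.1 hcard2
  rw [Finset.mem_erase, Finset.mem_erase] at hz hw
  obtain ⟨hzy, hzx, _⟩ := hz
  obtain ⟨hwy, hwx, _⟩ := hw
  refine ⟨Equiv.swap (τ x) z * Equiv.swap (τ x) w,
    (Equiv.Perm.isThreeCycle_swap_mul_swap_same hzy.symm hwy.symm hzw).mem_alternatingGroup, ?_⟩
  intro heq
  have h1 := congrArg (fun f : Equiv.Perm α => f x) heq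
  simp only [Equiv.Perm.mul_apply] at h1
  have hfix : (Equiv.swap (τ x) z * Equiv.swap (τ x) w)⁻¹ x = x := by
    rw [Equiv.Perm.inv_eq_iff_eq, Equiv.Perm.mul_apply,
      Equiv.swap_apply_of_ne_of_ne (Ne.symm hx) (Ne.symm hwx),
      Equiv.swap_apply_of_ne_of_ne (Ne.symm hx) (Ne.symm hzx)]
  rw [hfix, Equiv.swap_apply_left, Equiv.swap_apply_of_ne_of_ne hwy hzw.symm] at h1
  exact hwy h1

end Cfsg.Agent.Lib.Helper32.MQ
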