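import Cfsg.Agent.Lib.Helper32.MQ.Defs
import Cfsg.Agent.Lib.Helper32.MQ.NS0

set_option autoImplicit false

namespace Cfsg.Agent.Lib.Helper32.MQ

universe u v

variable {G : Type v} {Ω Β : Type u} [Group G] [MulAction G Ω] [MulAction G Β]

/-- W ≠ ⊥ gives τ ∈ W, τ ≠ 1 (`Subgroup.ne_bot_iff_exists_ne_one` or `Subgroup.eq_bot_iff_forall`).
ρ from NS0. t = (ρ τ ρ⁻¹) τ⁻¹ ∈ W, t ≠ 1, sign t = 1 (sign is a hom to a commutative group: simp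
[Equiv.Perm.mem_alternatingGroup, Equiv.Perm.sign_mul, Equiv.Perm.sign_inv], `Int.units_mul_self`). -/
theorem NS1 {α : Type*} [Fintype α] [DecidableEq α] (h4 : 4 ≤ Fintype.card α)
    (W : Subgroup (Equiv.Perm α)) (hW : W ≠ ⊥)
    (hnorm : ∀ ρ ∈ alternatingGroup α, ∀ τ ∈ W, ρ * τ * ρ⁻¹ ∈ W) :
    ∃ t ∈ W, t ≠ 1 ∧ t ∈ alternatingGroup α := by
  obtain ⟨⟨τ, hτW⟩, hτ1⟩ := Subgroup.ne_bot_iff_exists_ne_one.1 hW
  have hτ : τ ≠ 1 := fun h => hτ1 (Subtype.ext h)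
  obtain ⟨ρ, hρ, hne⟩ := NS0 h4 τ hτ
  refine ⟨ρ * τ * ρ⁻¹ * τ⁻¹, W.mul_mem (hnorm ρ hρ τ hτW) (W.inv_mem hτW), ?_, ?_⟩
  · intro h
    exact hne (mul_inv_eq_one.1 h)
  · rw [Equiv.Perm.mem_alternatingGroup]
    simp only [map_mul, map_inv]
    rw [Equiv.Perm.mem_alternatingGroup.1 hρ]
    simp

end Cfsg.Agent.Lib.Helper32.MQ
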