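import Cfsg.Agent.Lib.Helper32.MQ.Defs
import Cfsg.Agent.Lib.Helper32.MQ.NS1

set_option autoImplicit false

namespace Cfsg.Agent.Lib.Helper32.MQ

universe u v

variable {G : Type v} {Ω Β : Type u} [Group G] [MulAction G Ω] [MulAction G Β]

/-- `alternatingGroup.isSimpleGroup` (5 ≤ card; check its exact hypothesis form). W' = W.subgroupOf (alternatingGroup α)
is normal in the alternating group (hnorm), and ≠ ⊥ (NS1). So W' = ⊤ (`Subgroup.Normal.eq_bot_or_eq_top`), i.e.
alternatingGroup α ≤ W (`Subgroup.subgroupOf_eq_top`). -/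
theorem NS2 {α : Type*} [Fintype α] [DecidableEq α] (h5 : 5 ≤ Fintype.card α)
    (W : Subgroup (Equiv.Perm α)) (hW : W ≠ ⊥)
    (hnorm : ∀ ρ ∈ alternatingGroup α, ∀ τ ∈ W, ρ * τ * ρ⁻¹ ∈ W) :
    alternatingGroup α ≤ W := by
  haveI : IsSimpleGroup (alternatingGroup α) := alternatingGroup.isSimpleGroup (by rw [Nat.card_eq_fintype_card]; exact h5)
  obtain ⟨t, htW, ht1, htA⟩ := NS1 (by omega) W hW hnorm
  have hn : (W.subgroupOf (alternatingGroup α)).Normal := by
    constructor
    intro n hn g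
    rw [Subgroup.mem_subgroupOf] at hn ⊢
    exact hnorm g g.2 n hn
  rcases hn.eq_bot_or_eq_top with h | h
  · exfalso
    have hm : (⟨t, htA⟩ : alternatingGroup α) ∈ W.subgroupOf (alternatingGroup α) :=
      Subgroup.mem_subgroupOf.2 htW
    rw [h, Subgroup.mem_bot] at hm
    exact ht1 (congrArg Subtype.val hm)
  · exact Subgroup.subgroupOf_eq_top.1 h

end Cfsg.Agent.Lib.Helper32.MQ
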