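import Cfsg.Agent.Lib.Helper32.MQ.Defs

set_option autoImplicit false

namespace Cfsg.Agent.Lib.Helper32.MQ

universe u v

variable {G : Type v} {Ω Β : Type u} [Group G] [MulAction G Ω] [MulAction G Β]

/-- the subgroup with membership predicate `InW`. -/
def Wg (G : Type v) {Ω Β : Type u} [Group G] [MulAction G Ω] [MulAction G Β] [DecidableEq Β]
    (π : Ω → Β) (β0 : Β) : Subgroup (Equiv.Perm {β : Β // β ≠ β0}) where
  carrier := {τ | InW G π β0 τ}
  mul_mem' := by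
    rintro τ₁ τ₂ ⟨x₁, h₁, k₁⟩ ⟨x₂, h₂, k₂⟩
    refine ⟨x₁ * x₂, ?_, ?_⟩
    · intro ω hω
      rw [mul_smul, h₂ ω hω, h₁ ω hω]
    · intro β
      rw [mul_smul, k₂, k₁, map_mul, Equiv.Perm.mul_apply]
  one_mem' := by
    refine ⟨1, ?_, ?_⟩
    · intro ω _
      exact one_smul _ _
    · intro β
      rw [one_smul, map_one, Equiv.Perm.one_apply]
  inv_mem' := by
    rintro τ ⟨x, h, k⟩
    refine ⟨x⁻¹, ?_, ?_⟩
    · intro ω hω
      rw [inv_smul_eq_iff, h ω hω]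
    · intro β
      rw [inv_smul_eq_iff, k, map_inv]; simp

theorem mem_Wg [DecidableEq Β] (π : Ω → Β) (β0 : Β) (τ : Equiv.Perm {β : Β // β ≠ β0}) :
    τ ∈ Wg G π β0 ↔ InW G π β0 τ := Iff.rfl

end Cfsg.Agent.Lib.Helper32.MQ
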