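import Cfsg.Agent.Lib.Helper32.MQ.Defs
import Cfsg.Agent.Lib.Helper32.MQ.W0

set_option autoImplicit false

namespace Cfsg.Agent.Lib.Helper32.MQ

universe u v

variable {G : Type v} {Ω Β : Type u} [Group G] [MulAction G Ω] [MulAction G Β]

/-- ρ even so `ofSubtype ρ` is even (`Equiv.Perm.sign_ofSubtype`), induced by y : G (hAlt), and y • β0 = β0
(`Equiv.Perm.ofSubtype_apply_of_not_mem`). τ ∈ Wg via x. Then y * x * y⁻¹ works for ρ * τ * ρ⁻¹: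
if π ω = β0 then π (y⁻¹ • ω) = y⁻¹ • β0 = β0, so x fixes y⁻¹ • ω, so (y x y⁻¹) • ω = ω;
on Β: y • x • y⁻¹ • β = ofSubtype ρ (ofSubtype τ ((ofSubtype ρ)⁻¹ β)) (`map_mul`, `map_inv`). -/
theorem S8a [Fintype Β] [DecidableEq Β] {π : Ω → Β} (hπ : ES G π) (hAlt : AltIn G Β) (β0 : Β) :
    ∀ ρ ∈ alternatingGroup {β : Β // β ≠ β0}, ∀ τ ∈ Wg G π β0, ρ * τ * ρ⁻¹ ∈ Wg G π β0 := by
  intro ρ hρ τ hτ
  rw [mem_Wg] at hτ ⊢
  obtain ⟨x, hx1, hx2⟩ := hτ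
  have hs : Equiv.Perm.sign (Equiv.Perm.ofSubtype ρ) = 1 := by
    rw [Equiv.Perm.sign_ofSubtype]
    exact Equiv.Perm.mem_alternatingGroup.1 hρ
  obtain ⟨y, hy⟩ := hAlt _ hs
  have hy0 : y • β0 = β0 := by
    rw [hy]
    exact Equiv.Perm.ofSubtype_apply_of_not_mem ρ (by simp)
  have hy0' : y⁻¹ • β0 = β0 := by
    rw [inv_smul_eq_iff, hy0]
  have hyinv : ∀ β : Β, y⁻¹ • β = (Equiv.Perm.ofSubtype ρ)⁻¹ β := by
    intro β
    rw [inv_smul_eq_iff, hy]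
    exact ((Equiv.Perm.ofSubtype ρ).apply_symm_apply β).symm
  refine ⟨y * x * y⁻¹, ?_, ?_⟩
  · intro ω hω
    have h1 : π (y⁻¹ • ω) = β0 := by rw [hπ.eq, hω, hy0']
    rw [mul_smul, mul_smul, hx1 _ h1, smul_inv_smul]
  · intro β
    rw [mul_smul, mul_smul, hy, hx2, hyinv, map_mul, map_mul, map_inv]
    rfl

end Cfsg.Agent.Lib.Helper32.MQ
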