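import Cfsg.Agent.Lib.Helper32.MQ.Defs
import Cfsg.Agent.Lib.Helper32.MQ.W0

set_option autoImplicit false

namespace Cfsg.Agent.Lib.Helper32.MQ

universe u v

variable {G : Type v} {Ω Β : Type u} [Group G] [MulAction G Ω] [MulAction G Β]

theorem S8b [DecidableEq Β] {π : Ω → Β} (hπ : ES G π) (hF : FF G Β) (Γ : Set Ω) (h1 : 1 < Γ.ncard)
    (hJ : EJ G Γ) (β0 : Β) (h0 : β0 ∉ π '' Γ) : Wg G π β0 ≠ ⊥ := by
  obtain ⟨a, ha, b, hb, hab⟩ := (Set.one_lt_ncard (Set.finite_of_ncard_pos (by omega))).1 h1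
  obtain ⟨k, hk, hkab⟩ := hJ a ha b hb
  have hk1 : k ≠ 1 := by
    rintro rfl
    rw [one_smul] at hkab
    exact hab hkab
  have hfib : ∀ ω, π ω = β0 → k • ω = ω := by
    intro ω hω
    apply hk
    intro hωΓ
    exact h0 ⟨ω, hωΓ, hω⟩
  have hkβ : k • β0 = β0 := by
    obtain ⟨ω, hω⟩ := hπ.surj β0
    rw [← hω, ← hπ.eq, hfib ω hω]
  have hpres : ∀ β : Β, β ≠ β0 ↔ (MulAction.toPerm k : Equiv.Perm Β) β ≠ β0 := by
    intro β
    rw [MulAction.toPerm_apply, not_iff_not]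
    constructor
    · rintro rfl; exact hkβ
    · intro h
      rw [← hkβ] at h
      exact smul_left_cancel k h
  intro hbot
  have hmem : (MulAction.toPerm k : Equiv.Perm Β).subtypePerm (fun x => (hpres x).symm) ∈ Wg G π β0 := by
    refine ⟨k, hfib, ?_⟩
    intro β
    rw [Equiv.Perm.ofSubtype_subtypePerm]
    · rfl
    · intro x hx
      intro hx0
      apply hx
      rw [hx0]
      exact hkβ
  rw [hbot, Subgroup.mem_bot] at hmem
  apply hk1
  apply hF
  intro β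
  by_cases hβ : β = β0
  · rw [hβ]; exact hkβ
  · have := congrArg (fun τ : Equiv.Perm {β : Β // β ≠ β0} => ((τ ⟨β, hβ⟩ : {β : Β // β ≠ β0}) : Β)) hmem
    simpa using this

end Cfsg.Agent.Lib.Helper32.MQ
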