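import Cfsg.Agent.Lib.Helper32.MQ.Defs
import Cfsg.Agent.Lib.Helper32.MQ.NS2
import Cfsg.Agent.Lib.Helper32.MQ.S8a
import Cfsg.Agent.Lib.Helper32.MQ.S8b

set_option autoImplicit false

namespace Cfsg.Agent.Lib.Helper32.MQ

universe u v

variable {G : Type v} {Ω Β : Type u} [Group G] [MulAction G Ω] [MulAction G Β]

/-- NS2 with S8a, S8b; card {β // β ≠ β0} = card Β - 1 ≥ 5 (`Fintype.card_subtype_compl`, or
`Fintype.card_subtype_ne`-like lemma; `Set.card_ne_eq`). -/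
theorem S8c [Fintype Β] [DecidableEq Β] {π : Ω → Β} (hπ : ES G π) (hF : FF G Β) (hAlt : AltIn G Β)
    (h6 : 6 ≤ Fintype.card Β) (Γ : Set Ω) (h1 : 1 < Γ.ncard)
    (hJ : EJ G Γ) (β0 : Β) (h0 : β0 ∉ π '' Γ) :
    alternatingGroup {β : Β // β ≠ β0} ≤ Wg G π β0 := by
  have h5 : 5 ≤ Fintype.card {β : Β // β ≠ β0} := by
    have h : Fintype.card {β : Β // β ≠ β0} = Fintype.card Β - 1 := by
      rw [Fintype.card_subtype_compl (fun β => β = β0), Fintype.card_subtype_eq]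
    rw [h]; omega
  exact NS2 h5 (Wg G π β0) (S8b hπ hF Γ h1 hJ β0 h0) (S8a hπ hAlt β0)

end Cfsg.Agent.Lib.Helper32.MQ
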