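import Cfsg.Agent.Lib.Helper32.MQ.Defs

set_option autoImplicit false

namespace Cfsg.Agent.Lib.Helper32.MQ

universe u v

variable {G : Type v} {Ω Β : Type u} [Group G] [MulAction G Ω] [MulAction G Β]

/-- A = (alternatingGroup Β).comap (MulAction.toPermHom G Β) is normal. A ≠ ⊥: 3 ≤ card Β gives a 3-cycle σ ≠ 1
(three distinct points a b c, σ = swap a b * swap a c, `Equiv.Perm.isThreeCycle_swap_mul_swap_same`, sign = 1 by
`Equiv.Perm.IsThreeCycle.sign`), induced by x : G (hAlt), x ≠ 1 and x ∈ A. hqp A gives a ∈ A with a • w = w'. -/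
theorem S9a [Fintype Β] [DecidableEq Β] (hqp : QP G Ω) (hAlt : AltIn G Β)
    (h3 : 3 ≤ Fintype.card Β) (w w' : Ω) :
    ∃ a : G, Equiv.Perm.sign (MulAction.toPerm a : Equiv.Perm Β) = 1 ∧ a • w = w' := by
  set A : Subgroup G := (alternatingGroup Β).comap (MulAction.toPermHom G Β) with hA
  have hAn : A.Normal := inferInstance
  obtain ⟨a, b, c, hab, hac, hbc⟩ := Fintype.two_lt_card_iff.mp (by omega : 2 < Fintype.card Β)
  have h3c := Equiv.Perm.isThreeCycle_swap_mul_swap_same hab hac hbc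
  obtain ⟨x, hx⟩ := hAlt _ h3c.sign
  have hx1 : x ≠ 1 := by
    rintro rfl
    have h1 := hx c
    rw [one_smul, Equiv.Perm.mul_apply, Equiv.swap_apply_right, Equiv.swap_apply_left] at h1
    exact hbc h1.symm
  have hxA : x ∈ A := by
    show MulAction.toPermHom G Β x ∈ alternatingGroup Β
    rw [Equiv.Perm.mem_alternatingGroup]
    have : MulAction.toPermHom G Β x = Equiv.swap a b * Equiv.swap a c := by
      ext β
      exact hx β
    rw [this]; exact h3c.sign
  have hAne : A ≠ ⊥ := by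
    intro hbot
    rw [hbot] at hxA
    exact hx1 (Subgroup.mem_bot.mp hxA)
  have := hqp A hAn hAne
  obtain ⟨g, hg⟩ := MulAction.exists_smul_eq ↥A w w'
  exact ⟨(g : G), Equiv.Perm.mem_alternatingGroup.mp g.2, hg⟩

end Cfsg.Agent.Lib.Helper32.MQ
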