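import Cfsg.Agent.Lib.Helper32.MQ.Defs
import Cfsg.Agent.Lib.Helper32.MQ.W0

set_option autoImplicit false

namespace Cfsg.Agent.Lib.Helper32.MQ

universe u v

variable {G : Type v} {Ω Β : Type u} [Group G] [MulAction G Ω] [MulAction G Β]

/-- a • β0 = π (a • w) = π w' = β0. τ := (MulAction.toPerm a : Perm Β).subtypePerm _ ;
`Equiv.Perm.ofSubtype_subtypePerm` : ofSubtype τ = toPerm a ; `Equiv.Perm.sign_subtypePerm` : sign τ = 1.
So τ ∈ Wg (hW): x fixing the fibre of β0 pointwise with x • β = ofSubtype τ β = a • β for all β.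
hF applied to x⁻¹ * a gives a = x, so w' = a • w = x • w = w. -/
theorem S9b [Fintype Β] [DecidableEq Β] {π : Ω → Β} (hπ : ES G π) (hF : FF G Β) (β0 : Β)
    (hW : alternatingGroup {β : Β // β ≠ β0} ≤ Wg G π β0) (w w' : Ω) (hw : π w = β0) (hw' : π w' = β0)
    (a : G) (ha : Equiv.Perm.sign (MulAction.toPerm a : Equiv.Perm Β) = 1) (haw : a • w = w') :
    w = w' := by
  have ha0 : a • β0 = β0 := by
    rw [← hw, ← hπ.eq, haw, hw', hw]
  have h₁ : ∀ β : Β, (MulAction.toPerm a : Equiv.Perm Β) β ≠ β0 ↔ β ≠ β0 := by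
    intro β
    rw [MulAction.toPerm_apply]
    constructor
    · intro h hβ
      exact h (by rw [hβ, ha0])
    · intro h hβ
      apply h
      have : a • β = a • β0 := by rw [hβ, ha0]
      exact smul_left_cancel a this
  have h₂ : ∀ β : Β, (MulAction.toPerm a : Equiv.Perm Β) β ≠ β → β ≠ β0 := by
    intro β h hβ
    apply h
    rw [MulAction.toPerm_apply, hβ, ha0]
  have hτ : (MulAction.toPerm a : Equiv.Perm Β).subtypePerm h₁ ∈ alternatingGroup {β : Β // β ≠ β0} := by
    rw [Equiv.Perm.mem_alternatingGroup, Equiv.Perm.sign_subtypePerm _ h₁ h₂]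
    exact ha
  obtain ⟨x, hx1, hx2⟩ := hW hτ
  rw [Equiv.Perm.ofSubtype_subtypePerm h₁ h₂] at hx2
  have hxa : x⁻¹ * a = 1 := by
    apply hF
    intro β
    rw [mul_smul, inv_smul_eq_iff, hx2 β, MulAction.toPerm_apply]
  have hax : a = x := by
    have := congrArg (x * ·) hxa
    simpa using this
  rw [← haw, hax, hx1 w hw]

end Cfsg.Agent.Lib.Helper32.MQ
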