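import Cfsg.Agent.Lib.Helper32.MQ.Defs

set_option autoImplicit false

namespace Cfsg.Agent.Lib.Helper32.MQ

universe u v

variable {G : Type v} {Ω Β : Type u} [Group G] [MulAction G Ω] [MulAction G Β]

/-- Γ has two distinct points x ≠ y; hJ gives g with g • x = y, so g ≠ 1 and ⊤ ≠ ⊥; hqp ⊤ gives
transitivity of ⊤, transfer it to G. -/
theorem TR (hqp : QP G Ω) (Γ : Set Ω) (h1 : 1 < Γ.ncard) (hJ : EJ G Γ) :
    MulAction.IsPretransitive G Ω := by
  obtain ⟨x, y, hx, hy, hxy⟩ := (Set.one_lt_ncard_iff (Set.finite_of_ncard_pos (by omega))).1 h1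
  obtain ⟨g, -, hg⟩ := hJ x hx y hy
  have hne : (⊤ : Subgroup G) ≠ ⊥ := by
    intro h
    have hg1 : g ∈ (⊥ : Subgroup G) := h ▸ Subgroup.mem_top g
    rw [Subgroup.mem_bot] at hg1
    apply hxy
    rw [← hg, hg1, one_smul]
  have ht := hqp ⊤ inferInstance hne
  refine ⟨fun a b => ?_⟩
  obtain ⟨n, hn⟩ := ht.exists_smul_eq a b
  exact ⟨(n : G), hn⟩

end Cfsg.Agent.Lib.Helper32.MQ
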