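import Cfsg.Agent.Lib.Helper32.MQ.Defs
import Cfsg.Agent.Lib.Helper32.MQ.TR
import Cfsg.Agent.Lib.Helper32.MQ.S1
import Cfsg.Agent.Lib.Helper32.MQ.S2
import Cfsg.Agent.Lib.Helper32.MQ.S3
import Cfsg.Agent.Lib.Helper32.MQ.S4
import Cfsg.Agent.Lib.Helper32.MQ.S5c
import Cfsg.Agent.Lib.Helper32.MQ.S6
import Cfsg.Agent.Lib.Helper32.MQ.S8c
import Cfsg.Agent.Lib.Helper32.MQ.S9a
import Cfsg.Agent.Lib.Helper32.MQ.S9b
import Cfsg.Agent.Lib.Helper32.MQ.NP1
import Cfsg.Agent.Lib.Helper32.MQ.NP2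
import Cfsg.Agent.Lib.Helper32.MQ.PR2
import Cfsg.Agent.Lib.Helper32.MQ.BR

set_option autoImplicit false

namespace Cfsg.Agent.Lib.Helper32.MQ

universe u v

/-- the raw form of theorem P. -/
def HP : Prop :=
  ∀ (Om : Type u) [Fintype Om] [DecidableEq Om] (H : Subgroup (Equiv.Perm Om)),
    MulAction.IsPreprimitive ↥H Om → ∀ Gam : Set Om,
      2 ≤ Gam.ncard → 2 * Gam.ncard < Fintype.card Om →
      (∀ x ∈ Gam, ∀ y ∈ Gam, ∃ g ∈ H, (∀ d, d ∉ Gam → g d = d) ∧ g x = y) →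
      alternatingGroup Om ≤ H

/-- the imprimitive case is impossible, given the conclusion on the quotient. -/
theorem imprim {G : Type v} {Ω Β : Type u} [Group G] [MulAction G Ω] [MulAction G Β]
    [Fintype Ω] [Fintype Β] [DecidableEq Β] {π : Ω → Β} (hπ : ES G π)
    (hni : ¬ Function.Injective π) (hB : Nontrivial Β) (hqp : QP G Ω)
    (Γ : Set Ω) (h1 : 1 < Γ.ncard) (h2 : 2 * Γ.ncard < Fintype.card Ω) (hJ : EJ G Γ)
    (ih : QP G Β → ∀ Γ' : Set Β, 1 < Γ'.ncard → 2 * Γ'.ncard < Fintype.card Β → EJ G Γ' →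
      AltIn G Β) : False := by
  have htr := TR hqp Γ h1 hJ
  have hF : FF G Β := S1 hqp hπ hB
  have hqB : QP G Β := S2 hqp hπ
  have hsat := S3 hπ hF Γ h1 hJ
  have hJB := S4 hπ Γ hJ
  have hne : Γ.Nonempty := by
    rcases Set.eq_empty_or_nonempty Γ with h | h
    · rw [h] at h1; simp at h1
    · exact h
  have hc3 := S6 hπ hF htr hni Γ hne hsat hJ
  have h2' : 2 * (π '' Γ).ncard < Nat.card Β :=
    S5c hπ htr Γ hsat (by rw [Nat.card_eq_fintype_card]; exact h2)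
  rw [Nat.card_eq_fintype_card] at h2'
  have hAlt : AltIn G Β := ih hqB (π '' Γ) (by omega) h2' hJB
  -- a point outside the image
  have hex : ∃ β0 : Β, β0 ∉ π '' Γ := by
    by_contra hcon
    push Not at hcon
    have : π '' Γ = Set.univ := Set.eq_univ_of_forall hcon
    rw [this, Set.ncard_univ, Nat.card_eq_fintype_card] at h2'
    omega
  obtain ⟨β0, h0⟩ := hex
  have hW := S8c hπ hF hAlt (by omega) Γ h1 hJ β0 h0
  -- two distinct points in the fibre of β0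
  have hfib : ∃ w w' : Ω, π w = β0 ∧ π w' = β0 ∧ w ≠ w' := by
    have : ∃ u u' : Ω, π u = π u' ∧ u ≠ u' := by
      by_contra hcon
      push Not at hcon
      exact hni (fun a b hab => hcon a b hab)
    obtain ⟨u, u', huu, hne'⟩ := this
    obtain ⟨w, hw⟩ := hπ.surj β0
    obtain ⟨g, hg⟩ := htr.exists_smul_eq u w
    refine ⟨w, g • u', hw, ?_, ?_⟩
    · rw [hπ.eq, ← huu, ← hπ.eq, hg, hw]
    · rw [← hg]
      intro h
      exact hne' (smul_left_cancel g h)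
  obtain ⟨w, w', hw, hw', hne'⟩ := hfib
  obtain ⟨a, ha, haw⟩ := S9a (Β := Β) hqp hAlt (by omega) w w'
  exact hne' (S9b hπ hF β0 hW w w' hw hw' a ha haw)

theorem Q {G : Type v} [Group G] (hP : HP.{u}) :
    ∀ (n : ℕ) (Ω : Type u) [Fintype Ω] [DecidableEq Ω] [MulAction G Ω], Fintype.card Ω = n →
      QP G Ω → ∀ Γ : Set Ω, 1 < Γ.ncard → 2 * Γ.ncard < Fintype.card Ω → EJ G Γ → AltIn G Ω := by
  intro n
  induction n using Nat.strong_induction_on with
  | _ n IH =>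
    intro Ω _ _ _ hn hqp Γ h1 h2 hJ
    by_cases hprim : MulAction.IsPreprimitive G Ω
    · exact PR2 (hP Ω) hprim Γ h1 h2 hJ
    · exfalso
      have htr := TR hqp Γ h1 hJ
      obtain ⟨B, hB, hnt⟩ := NP1 htr hprim
      obtain ⟨Β, iB, π, hπ, hni, hnB⟩ := NP2 B hB hnt
      haveI : Finite Β := Finite.of_surjective π hπ.surj
      letI : Fintype Β := Fintype.ofFinite Β
      letI : DecidableEq Β := Classical.decEq Β
      have hlt : Fintype.card Β < n := by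
        rw [← hn]
        exact Fintype.card_lt_of_surjective_not_injective π hπ.surj hni
      exact imprim hπ hni hnB hqp Γ h1 h2 hJ
        (fun hq Γ' a b c => IH (Fintype.card Β) hlt Β rfl hq Γ' a b c)

/-- the row, from the raw form of theorem P. -/
theorem row (hP : HP.{u}) {G : Type v} {Ω : Type u} [Group G] [MulAction G Ω]
    [Fintype Ω] [DecidableEq Ω]
    (hqp : ∀ N : Subgroup G, N.Normal → N ≠ ⊥ → MulAction.IsPretransitive ↥N Ω)
    (Γ : Set Ω) (hΓ1 : 1 < Γ.ncard) (hΓ2 : 2 * Γ.ncard < Fintype.card Ω)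
    (hJ : MulAction.IsPretransitive ↥(fixingSubgroup G Γᶜ)
      ↥(SubMulAction.ofFixingSubgroup G Γᶜ)) :
    ∀ σ : Equiv.Perm Ω, Equiv.Perm.sign σ = 1 →
      ∃ x : G, (MulAction.toPerm x : Equiv.Perm Ω) = σ := by
  intro σ hσ
  obtain ⟨x, hx⟩ := Q hP (Fintype.card Ω) Ω rfl hqp Γ hΓ1 hΓ2 (BR Γ hJ) σ hσ
  exact ⟨x, Equiv.ext hx⟩

end Cfsg.Agent.Lib.Helper32.MQ
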