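import Cfsg.Agent.Lib.Helper32.MQ.Defs

set_option autoImplicit false

namespace Cfsg.Agent.Lib.Helper32.MQ

universe u v

variable {G : Type v} {Ω Β : Type u} [Group G] [MulAction G Ω] [MulAction G Β]

open scoped Pointwise in
theorem NP2 (B : Set Ω) (hB : MulAction.IsBlock G B) (hnt : ¬ MulAction.IsTrivialBlock B) :
    ∃ (Β : Type u) (_ : MulAction G Β) (π : Ω → Β),
      ES G π ∧ ¬ Function.Injective π ∧ Nontrivial Β := by
  classical
  let s : Setoid Ω :=
    { r := fun x y => ∀ g : G, g • x ∈ B ↔ g • y ∈ B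
      iseqv := ⟨fun x g => Iff.rfl, fun h g => (h g).symm, fun h1 h2 g => (h1 g).trans (h2 g)⟩ }
  let act : MulAction G (Quotient s) :=
    { smul := fun g => Quotient.map (fun x => g • x) (fun x y h k => by
        have h1 := h (k * g)
        rw [mul_smul, mul_smul] at h1
        exact h1)
      one_smul := by
        rintro ⟨x⟩
        show Quotient.mk s ((1 : G) • x) = Quotient.mk s x
        rw [one_smul]
      mul_smul := by
        rintro g h ⟨x⟩
        show Quotient.mk s ((g * h) • x) = Quotient.mk s (g • h • x)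
        rw [mul_smul] }
  have hnt' : ¬ B.Subsingleton ∧ B ≠ Set.univ := by
    constructor
    · intro h
      exact hnt (Or.inl h)
    · intro h
      exact hnt (Or.inr h)
  obtain ⟨x, hx, y, hy, hxy⟩ := Set.not_subsingleton_iff.mp hnt'.1
  obtain ⟨z, hz⟩ := (Set.ne_univ_iff_exists_notMem B).mp hnt'.2
  have aux : ∀ a ∈ B, ∀ b ∈ B, ∀ g : G, g • a ∈ B → g • b ∈ B := by
    intro a ha b hb g hga
    rcases hB.smul_eq_or_disjoint g with h | h
    · rw [← h]
      exact Set.smul_mem_smul_set hb
    · exfalso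
      exact Set.disjoint_left.mp h (Set.smul_mem_smul_set ha) hga
  refine ⟨Quotient s, act, Quotient.mk s, ⟨fun g x => rfl, Quotient.mk_surjective⟩, ?_, ?_⟩
  · intro hinj
    have h1 : Quotient.mk s x = Quotient.mk s y :=
      Quotient.sound (fun g => ⟨aux x hx y hy g, aux y hy x hx g⟩)
    exact hxy (hinj h1)
  · refine ⟨⟨Quotient.mk s x, Quotient.mk s z, fun h => ?_⟩⟩
    have h1 : ∀ g : G, g • x ∈ B ↔ g • z ∈ B := Quotient.exact h
    have h2 := h1 1
    rw [one_smul, one_smul] at h2
    exact hz (h2.mp hx)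

end Cfsg.Agent.Lib.Helper32.MQ
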